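import Cfsg.Agent.G2C.Cell

/-! Thompson's class square for `G₂(q)`. -/

set_option autoImplicit false

namespace Cfsg.Agent.G2C

open Matrix Chev Cfsg.Lie _root_.Cfsg.Agent.Classical SpC
open scoped MatrixGroups

variable {F : Type*} [Field F] {G : Type*} [Group G]

local notation "M2" => Matrix (Fin 2) (Fin 2) F

theorem lev_inv {X : Sys chevG2 F G} (m : X.Mult) {Y : (M2)ˣ} (h : Y.1.trace ^ 2 ≠ 4 * Y.1.det) :
    IsConj (lev m Y) (lev m Y⁻¹) := by
  have hn := X.mon_n th (t := 1) one_ne_zero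
  have c1 : ∀ g, X.n th 1 * Ree.sysSL2 m al g * (X.n th 1)⁻¹ = Ree.sysSL2 m al g := fun g => by
    have : ∀ r, r = al ∨ r = ng al → ∀ t, X.x r t ∈ Subgroup.centralizer {X.n th 1} := fun r hr t => by
      have : ∀ r, r = al ∨ r = ng al → ∀ s, s = th ∨ s = ng th → s ≠ ng r ∧ ∀ k : Rt chevG2,
          rtv k i1G2 * rtv s i1G2 < 4 ∨ rtv k i0G2 * rtv s i1G2 = 6 ∧ rtv s i0G2 * rtv s i1G2 = 6 ∧
            rtv k i1G2 = rtv s i1G2 ∧ rtv r i0G2 ≠ 0 ∧ rtv r i1G2 = 0 := by decide +kernel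
      have key : ∀ s, s = th ∨ s = ng th → ∀ u, Commute (X.x s u) (X.x r t) := fun s hs u =>
        X.commute_of (this r hr s hs).1 (fun k ⟨i, j, hi, hj, e⟩ => by
          have e0 : rtv k i0G2 = i * rtv r i0G2 + j * rtv s i0G2 := congrFun e _
          have e1 : rtv k i1G2 = i * rtv r i1G2 + j * rtv s i1G2 := congrFun e _
          have a1 : rtv r i1G2 = 0 := by rcases hr with rfl | rfl <;> decide +kernel
          have a2 : rtv s i1G2 * rtv s i1G2 = 4 := by rcases hs with rfl | rfl <;> decide +kernel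
          rw [a1, mul_zero, zero_add] at e1
          rcases (this r hr s hs).2 k with h | ⟨h1, h2, h3, h4, -⟩
          · rw [e1, mul_assoc, a2] at h; omega
          · have a3 : rtv s i1G2 ≠ 0 := fun h => by simp [h] at a2
            have : j = 1 := mul_right_cancel₀ a3 (by rw [← e1, h3, one_mul])
            subst this
            have : rtv k i0G2 = rtv s i0G2 := mul_right_cancel₀ a3 (h1.trans h2.symm)
            rw [this] at e0
            exact mul_ne_zero (by omega : i ≠ 0) h4 (by linear_combination -e0)) t u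
      rw [Subgroup.mem_centralizer_singleton_iff]
      exact (((key _ (.inl rfl) _).mul_left (key _ (.inr rfl) _)).mul_left (key _ (.inl rfl) _)).symm
    have := Ree.sysSL2_mem m al (this _ (.inl rfl)) (this _ (.inr rfl)) g
    rw [Subgroup.mem_centralizer_singleton_iff] at this
    rw [← this, mul_inv_cancel_right]
  have c2 : ∀ δ : Fˣ, X.n th 1 * X.h be δ * (X.n th 1)⁻¹ = lev m (dG δ⁻¹ 1) := fun δ => by
    rw [m.conj_h hn be δ.ne_zero, rW_smul, refl_eq (k := ng bb) (by decide +kernel), m.h_eq_tor, lev_d]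
    congr 1
    funext i
    have : ∀ i, cov (ng bb) i = -1 := by decide +kernel
    simp [this]
  have c3 : IsConj (lev m Y) (lev m (SpecialLinearGroup.toGL (sA Y) * dG (dt Y)⁻¹ 1)) := isConj_iff.2 ⟨X.n th 1, by
    rw [map_mul, gl2_sl, ← c2, ← c1, gl2_apply]; group⟩
  refine c3.trans ((lev m).map_isConj (isConj_un ?_ ?_ ?_).symm)
  all_goals
    have h0 : Y.1.det ≠ 0 := (dt Y).ne_zero
    have e1 : (Y⁻¹).1 = (Y.1.det)⁻¹ • Y.1.adjugate := by rw [Matrix.coe_units_inv, inv_def, Ring.inverse_eq_inv]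
  · rw [e1, trace_smul, det_smul, det_adjugate, adjugate_fin_two]
    intro h'
    apply h
    simp [trace_fin_two] at h' ⊢
    field_simp at h'
    linear_combination h'
  · change ((sA Y).1 * (dG (dt Y)⁻¹ 1).1).trace = _
    rw [e1, sA_val, adjugate_fin_two]; simp [trace_fin_two]; ring
  · change ((sA Y).1 * (dG (dt Y)⁻¹ 1).1).det = _
    rw [e1, det_mul, (sA Y).2, det_smul, det_adjugate]; simp [det_fin_two]; field_simp

theorem lev_fpf [Finite F] (p : ℕ) [CharP F p] {s d : F} (hd1 : d ≠ 1) (h4 : s ^ 2 ≠ 4 * d) (h5 : 1 - s + d ≠ 0)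
    (h6 : d ^ 2 + d - s ^ 3 + 3 * s * d ≠ 0) (φ : Fn chevG2) (hφ : φ = ps ∨ φ = -ps) {Y : (M2)ˣ}
    (h1 : Y.1.trace = s) (h2 : Y.1.det = d) (u : chevG2.SteinbergGroup F)
    (hu : u ∈ (stS chevG2 F).U {r | 0 < φ (rtv r)})
    (e : lev (stS_mult chevG2 F) Y * u * (lev (stS_mult chevG2 F) Y)⁻¹ = u) : u = 1 := by
  let K := AlgebraicClosure F
  let ι : F →+* K := algebraMap F K
  obtain ⟨x, hx⟩ : ∃ x : K, x ^ 2 - ι s * x + ι d = 0 := by
    obtain ⟨x, hx⟩ := IsAlgClosed.exists_root (Polynomial.C 1 * Polynomial.X ^ 2 + Polynomial.C (-ι s) * Polynomial.X +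
      Polynomial.C (ι d)) (by rw [Polynomial.degree_quadratic one_ne_zero]; decide)
    exact ⟨x, by simpa [sub_eq_add_neg] using hx⟩
  have hd0 : ι d ≠ 0 := by rw [_root_.map_ne_zero, ← h2]; exact (dt Y).ne_zero
  have e1 : x * (ι s - x) = ι d := by linear_combination -hx
  let x' := Units.mk0 x (left_ne_zero_of_mul (e1 ▸ hd0))
  let y' := Units.mk0 (ι s - x) (right_ne_zero_of_mul (e1 ▸ hd0))
  have t1 : (GeneralLinearGroup.map ι Y).1.trace = ι s := by rw [← h1]; simp [trace_fin_two]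
  have t2 : (GeneralLinearGroup.map ι Y).1.det = ι d := by rw [← h2]; simp [det_fin_two]
  obtain ⟨P, hP⟩ := isConj_iff.1 (isConj_un (P := GeneralLinearGroup.map ι Y) (Q := dG x' y')
    (by rw [t1, t2, ← map_pow, ← map_ofNat ι, ← map_mul]; exact ι.injective.ne h4)
    (by rw [t1]; simp [x', y']) (by rw [t2]; simpa [x', y'] using e1))
  let M := stS_mult chevG2 K
  have n1 : lev M P ∈ _ := gl2_norm M hab φ (by rcases hφ with rfl | rfl <;> decide +kernel) P
  have u1 := Sys.conj_mem_of_norm n1 (stMap_mem_U ι hu)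
  have u2 : lev M P * stMap _ ι u * (lev M P)⁻¹ ∈ (M.cj fun i => if i = i0G2 then x' else x' * y').fix := by
    rw [M.mem_cj_fix, ← lev_d, ← hP, map_mul, map_mul, map_inv, ← gl2_stMap]
    conv_rhs => rw [← e, map_mul, map_mul, map_inv]
    group
  have u3 := ((stCover chevG2 K).U_inf_cj M (nilp_pos φ) _).le ⟨u1, u2⟩
  have q1 : x' ≠ 1 := fun h => h5 (ι.injective (by
    have : x = 1 := congrArg Units.val h
    simp only [map_add, map_sub, map_one, map_zero]; rw [this] at hx; linear_combination hx))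
  have q2 : y' ≠ 1 := fun h => h5 (ι.injective (by
    have : ι s - x = 1 := congrArg Units.val h
    simp only [map_add, map_sub, map_one, map_zero]; linear_combination -e1 + (x - 1) * this))
  have q3 : x' * y' ≠ 1 := fun h => hd1 (ι.injective (by
    have : x * (ι s - x) = 1 := congrArg Units.val h
    rw [← e1, this, map_one]))
  have q4 : x' ^ 2 ≠ y' ∧ y' ^ 2 ≠ x' := by
    have : (x ^ 2 - (ι s - x)) * ((ι s - x) ^ 2 - x) ≠ 0 := fun h => h6 (ι.injective (by
      simp only [map_add, map_sub, map_mul, map_pow, map_zero, map_ofNat]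
      rw [← e1]; linear_combination h))
    exact ⟨fun h => left_ne_zero_of_mul this (sub_eq_zero.2 (congrArg Units.val h)),
      fun h => right_ne_zero_of_mul this (sub_eq_zero.2 (congrArg Units.val h))⟩
  have q5 : ∀ r : Rt chevG2, 0 < ps (rtv r) → chi (fun i => if i = i0G2 then x' else x' * y') r ≠ 1 := fun r hr => by
    have e : chi (fun i => if i = i0G2 then x' else x' * y') r = x' ^ car i0G2 r * (x' * y') ^ car i1G2 r :=
      Fin.prod_univ_two (fun i : Sm chevG2 => (if i = i0G2 then x' else x' * y') ^ car i r)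
    have : ∀ r : Rt chevG2, 0 < ps (rtv r) → (car i0G2 r, car i1G2 r) ∈
      [((-3 : ℤ), (2 : ℤ)), (-1, 1), (1, 0), (3, -1), (0, 1)] := by decide +kernel
    have := this r hr
    simp only [List.mem_cons, Prod.mk.injEq, List.not_mem_nil, or_false] at this
    rw [e]
    rcases this with ⟨a, b⟩ | ⟨a, b⟩ | ⟨a, b⟩ | ⟨a, b⟩ | ⟨a, b⟩ <;> rw [a, b] <;> intro h
    · exact q4.2 (by rw [← mul_one x', ← h, mul_zpow]; group)
    · exact q2 (by rw [← h]; group)
    · exact q1 (by rw [← h]; group)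
    · exact q4.1 (by rw [← mul_one y', ← h, mul_zpow, mul_comm y']; group)
    · exact q3 (by rw [← h]; group)
  have u4 : {r | r ∈ {r | 0 < φ (rtv r)} ∧ chi (fun i => if i = i0G2 then x' else x' * y') r = 1} = ∅ :=
    Set.eq_empty_of_forall_notMem fun r ⟨h1, h2⟩ => by
      rcases hφ with rfl | rfl
      · exact q5 r h1 h2
      · exact q5 (ng r) (by simpa using h1) (by rw [chi_ng, h2, inv_one])
  rw [u4, Sys.U_empty, Subgroup.mem_bot, conj_eq_one_iff] at u3
  exact stMap_injective (bigG2 F p).inj ι (u3.trans (map_one _).symm)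

theorem params [Fintype F] (h3 : 3 ≤ Fintype.card F) : ∃ s d : F, d ≠ 0 ∧ d ≠ 1 ∧ s ≠ 0 ∧ s ^ 2 ≠ 4 * d ∧
    1 - s + d ≠ 0 ∧ d ^ 2 + d - s ^ 3 + 3 * s * d ≠ 0 ∧ ((2 : F) ≠ 0 → d = -1) := by
  classical
  by_cases h2 : (2 : F) = 0
  · obtain ⟨-, d, a, b, -⟩ := SpC.params h3
    refine ⟨1, d, a, b, one_ne_zero, fun h => one_ne_zero (α := F) (by linear_combination h + 2 * d * h2),
      by simpa using a, fun h => b (sub_eq_zero.1 (pow_eq_zero_iff two_ne_zero |>.1
        (by linear_combination h + (1 - 3 * d) * h2))), fun h => absurd h2 h⟩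
  have n1 : (-1 : F) ≠ 1 := fun h => h2 (by linear_combination -h)
  by_cases h5 : (5 : F) = 0
  · exact ⟨2, -1, by simp, n1, h2, fun h => one_ne_zero (α := F) (by linear_combination 2 * h - 3 * h5),
      fun h => h2 (by linear_combination -h), fun h => one_ne_zero (α := F) (by linear_combination h + 3 * h5),
      fun _ => rfl⟩
  · exact ⟨1, -1, by simp, n1, one_ne_zero, fun h => h5 (by linear_combination h), by simp,
      fun h => pow_ne_zero 2 h2 (by linear_combination -h), fun _ => rfl⟩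

theorem g2_sq [Fintype F] (p : ℕ) [Fact p.Prime] [CharP F p] (h3 : 3 ≤ Fintype.card F) :
    ∃ x : chevG2.SteinbergGroup F, ¬ p ∣ orderOf x ∧ ∀ g : chevG2.SteinbergGroup F, g ≠ 1 →
      ∃ y z, IsConj x y ∧ IsConj x z ∧ IsConj g (y * z) := by
  obtain ⟨s, d, hd0, hd1, hs, h4, h5, h6, h7⟩ := params h3
  let X := un (cp s d) (by rwa [cp_det])
  let m := stS_mult chevG2 F
  haveI : IsSimpleGroup (chevG2.SteinbergGroup F) := by
    haveI := (simple_group chevG2 F (.inl ⟨d, hd0, hd1⟩)).1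
    exact (stEquiv chevG2 F (zkerG2_eq_bot F)).isSimpleGroup
  haveI : Finite (chevG2.SteinbergGroup F) := finite_st
  refine ⟨lev m X, fun h => coprime_order p h4 X rfl (h.trans (orderOf_map_dvd _ X)), fun g hg => ?_⟩
  obtain ⟨B, hB, H⟩ := big_cell m (stCover _ _) (stS_U_univ _ _) hg
  have G := @goodG F _ _ _ _ (lev m) _ _ _ _ (lev_Up m) (lev_Um m) s d hd0 hs h4
    (fun Y => lev_fpf p hd1 h4 h5 h6 _ (.inl rfl)) (fun Y => lev_fpf p hd1 h4 h5 h6 _ (.inr rfl))
    (fun Y a b => lev_inv m (by rwa [a, b])) X rfl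
  suffices ∃ (t : Fˣ) (A : M2), A.det = 1 ∧ (A = 1 ∨ (A.trace ≠ 2 ∧ ¬ ∃ a : F, A = a • 1)) ∧
      ((dG 1 t * B).1 = A ∨ (dG 1 t * B).1 = d • A) by
    obtain ⟨t, A, a, b, c⟩ := this
    obtain ⟨v, hv, u, hu, e⟩ := H t
    obtain ⟨y, z, e1, e2, e3⟩ := G a b c hu hv
    exact ⟨y, z, e1, e2, e3 ▸ e⟩
  have hB0 : B.1.det ≠ 0 := (dt B).ne_zero
  have dd : ∀ t : Fˣ, (dG 1 t * B).1.det = t * B.1.det := fun t => by
    rw [Units.val_mul, det_mul]; simp [det_fin_two]
  have d1 : (dG 1 (dt B)⁻¹ * B).1.det = 1 := by rw [dd]; simp [hB0]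
  by_cases h20 : (2 : F) = 0
  · have ns : ∀ A : M2, A.trace ≠ 0 → A.trace ≠ 2 ∧ ¬ ∃ a : F, A = a • 1 := fun A hA => ⟨by rwa [h20], by
      rintro ⟨a, rfl⟩
      exact hA (by simp [h20])⟩
    have tt : ∀ t : Fˣ, (dG 1 t * B).1.trace = B.1 0 0 + t * B.1 1 1 := fun t => by
      rw [trace_fin_two, Units.val_mul]; simp [Matrix.mul_apply, Fin.sum_univ_two, -cons_mul]
    by_cases h : (dG 1 (dt B)⁻¹ * B).1.trace = 0
    · let t := Units.mk0 d hd0 ^ 2 * (dt B)⁻¹
      refine ⟨t, d⁻¹ • (dG 1 t * B).1, by rw [det_smul, dd]; simp [t]; field_simp, .inr (ns _ ?_),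
        .inr (by rw [smul_smul, mul_inv_cancel₀ hd0, one_smul])⟩
      rw [trace_smul]
      refine mul_ne_zero (inv_ne_zero hd0) fun h' => ?_
      rw [tt] at h h'
      have : (d - 1) ^ 2 * (((dt B)⁻¹ : Fˣ) * B.1 1 1) = 0 := by
        simp only [t, Units.val_mul, Units.val_pow_eq_pow_val, Units.val_mk0] at h'
        linear_combination h' - h + (1 - d) * ((dt B)⁻¹ : Fˣ) * B.1 1 1 * h20
      have h1 := (mul_eq_zero.1 this).resolve_left (pow_ne_zero 2 (sub_ne_zero.2 hd1))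
      rw [h1, add_zero] at h
      exact hB.elim (· h) (· ((mul_eq_zero.1 h1).resolve_left (Units.ne_zero _)))
    · exact ⟨_, _, d1, .inr (ns _ h), .inl rfl⟩
  obtain rfl := h7 h20
  generalize hA : (dG 1 (dt B)⁻¹ * B).1 = A at d1
  have hcase : (A = 1 ∨ (A.trace ≠ 2 ∧ ¬ ∃ a : F, A = a • 1)) ∨
      (-A = 1 ∨ ((-A).trace ≠ 2 ∧ ¬ ∃ a : F, -A = a • 1)) := by
    by_cases hsc : ∃ a : F, A = a • 1
    · obtain ⟨a, ha⟩ := hsc
      rw [ha, det_smul, det_one, mul_one, Fintype.card_fin, sq, mul_self_eq_one_iff] at d1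
      rcases d1 with rfl | rfl
      · exact .inl (.inl (by simp [ha]))
      · exact .inr (.inl (by simp [ha]))
    · by_cases ht : A.trace = 2
      · refine .inr (.inr ⟨fun h => ?_, fun ⟨a, ha⟩ => hsc ⟨-a, by rw [neg_smul, ← ha, neg_neg]⟩⟩)
        rw [trace_neg, ht] at h
        exact pow_ne_zero 2 h20 (by linear_combination -h)
      · exact .inl (.inr ⟨ht, hsc⟩)
  rcases hcase with hh | hh
  · exact ⟨_, A, d1, hh, .inl hA⟩
  · exact ⟨_, -A, by rw [det_neg, d1]; simp, hh, .inr (by rw [hA]; simp)⟩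

end Cfsg.Agent.G2C
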